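import Mathlib
import Cfsg.Agent.Lib.Helper51.Zass.Defs

/-!
# ZASS (S0690), package [RL]: the ring lemma

If the enveloping algebra of `closure S` is spanned by 8 elements over a commutative subalgebra `Z`
commuting with `S`, then `closure S` embeds fixed-point-freely in `GL₂(E)`, `E` a finite field of
characteristic `p`.
-/

set_option autoImplicit false

namespace Cfsg.Agent.Lib.Helper59.Zass

open Cfsg.Agent.Lib.Helper51.Zass

universe u

/-- a finite nontrivial ring has a quotient which is a matrix ring over a finite field -/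
theorem rl_simple_quot (R : Type u) [Ring R] [Finite R] [Nontrivial R] :
    ∃ (n : ℕ) (_ : NeZero n) (D : Type u) (_ : Field D) (_ : Finite D)
      (Ψ : R →+* Matrix (Fin n) (Fin n) D), Function.Surjective Ψ := by
  classical
  obtain ⟨I, hI⟩ := Set.Finite.exists_maximal (s := {I : Ideal R | I.IsTwoSided ∧ I ≠ ⊤})
    (Set.toFinite _) ⟨⊥, inferInstance, bot_ne_top⟩
  obtain ⟨⟨hI2, hItop⟩, hmax⟩ := hI
  have := hI2
  have : Nontrivial (R ⧸ I) := Ideal.Quotient.nontrivial_iff.2 hItop
  have : IsSimpleRing (R ⧸ I) := by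
    rw [isSimpleRing_iff_isTwoSided_imp]
    refine ⟨inferInstance, fun J hJ => ?_⟩
    have := hJ
    by_cases hJtop : J.comap (Ideal.Quotient.mk I) = ⊤
    · right
      rw [Ideal.eq_top_iff_one] at hJtop ⊢
      have h1 : (Ideal.Quotient.mk I) 1 ∈ J := hJtop
      rw [map_one] at h1
      exact h1
    · left
      have hle : I ≤ J.comap (Ideal.Quotient.mk I) := by
        intro x hx
        rw [Ideal.mem_comap]
        have h0 : Ideal.Quotient.mk I x = 0 := Ideal.Quotient.eq_zero_iff_mem.2 hx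
        rw [h0]
        exact J.zero_mem
      have hle2 := hmax ⟨inferInstance, hJtop⟩ hle
      rw [eq_bot_iff]
      intro y hy
      obtain ⟨x, rfl⟩ := Ideal.Quotient.mk_surjective y
      have hx : x ∈ I := hle2 hy
      rw [Ideal.mem_bot]
      exact Ideal.Quotient.eq_zero_iff_mem.2 hx
  have : Finite (R ⧸ I) := Finite.of_surjective _ Ideal.Quotient.mk_surjective
  obtain ⟨n, hn, D, hD, ⟨e⟩⟩ := IsSimpleRing.exists_ringEquiv_matrix_divisionRing (R ⧸ I)
  have := hn
  have : Finite (Matrix (Fin n) (Fin n) D) := Finite.of_equiv _ e.toEquiv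
  have : Finite D := Finite.of_surjective (fun M : Matrix (Fin n) (Fin n) D => M 0 0)
    (fun d => ⟨fun _ _ => d, rfl⟩)
  refine ⟨n, hn, D, littleWedderburn D, inferInstance,
    (e : R ⧸ I →+* Matrix (Fin n) (Fin n) D).comp (Ideal.Quotient.mk I), ?_⟩
  exact e.surjective.comp Ideal.Quotient.mk_surjective

/-- the matrix size is at most 2 if the ring is spanned by 8 elements over central elements -/
theorem rl_size_le_two (R : Type u) [Ring R] (n : ℕ) (D : Type u) [Field D] [Finite D]
    (Ψ : R →+* Matrix (Fin n) (Fin n) D) (hΨ : Function.Surjective Ψ)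
    (Zs : Set R) (hZs : ∀ z ∈ Zs, ∀ x : R, z * x = x * z) (r : Fin 8 → R)
    (hspan : ∀ x : R, ∃ c : Fin 8 → R, (∀ i, c i ∈ Zs) ∧ x = ∑ i, c i * r i) : n ≤ 2 := by
  classical
  have hscal : ∀ z ∈ Zs, ∃ d : D, Ψ z = Matrix.scalar (Fin n) d := by
    intro z hz
    have hc : Ψ z ∈ Set.center (Matrix (Fin n) (Fin n) D) := by
      rw [Semigroup.mem_center_iff]
      intro M
      obtain ⟨x, rfl⟩ := hΨ M
      rw [← map_mul, ← map_mul, hZs z hz x]
    rw [Matrix.center_eq_scalar_image] at hc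
    obtain ⟨d, _, hd⟩ := hc
    exact ⟨d, hd.symm⟩
  have hsurj : Function.Surjective
      (fun d : Fin 8 → D => ∑ i, d i • Ψ (r i)) := by
    intro M
    obtain ⟨x, rfl⟩ := hΨ M
    obtain ⟨c, hc, hx⟩ := hspan x
    choose d hd using fun i => hscal (c i) (hc i)
    refine ⟨d, ?_⟩
    rw [hx, map_sum]
    refine Finset.sum_congr rfl (fun i _ => ?_)
    rw [map_mul, hd i, Matrix.scalar_apply, Matrix.smul_eq_diagonal_mul]
  have hcard := Nat.card_le_card_of_surjective _ hsurj
  have e1 : Nat.card (Matrix (Fin n) (Fin n) D) = Nat.card D ^ (n * n) := by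
    have : Nat.card (Matrix (Fin n) (Fin n) D) = Nat.card (Fin n → Fin n → D) := rfl
    rw [this, Nat.card_fun, Nat.card_fun, Nat.card_fin, ← pow_mul]
  have e2 : Nat.card (Fin 8 → D) = Nat.card D ^ 8 := by
    rw [Nat.card_fun, Nat.card_fin]
  rw [e1, e2] at hcard
  have h1 : 1 < Nat.card D := Finite.one_lt_card
  have h2 : n * n ≤ 8 := (Nat.pow_le_pow_iff_right h1).1 hcard
  nlinarith

/-- the `(0,0)`-entry as a ring homomorphism on `1 × 1` matrices -/
def rlEntry (D : Type u) [Field D] : Matrix (Fin 1) (Fin 1) D →+* D where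
  toFun M := M 0 0
  map_one' := by simp
  map_mul' A B := by simp [Matrix.mul_apply]
  map_zero' := rfl
  map_add' A B := rfl

/-- enlarge the matrix size to `2` -/
theorem rl_to_two (R : Type u) [Ring R] (n : ℕ) [NeZero n] (hn : n ≤ 2) (D : Type u) [Field D]
    (Ψ : R →+* Matrix (Fin n) (Fin n) D) : Nonempty (R →+* Matrix (Fin 2) (Fin 2) D) := by
  have hn0 : n ≠ 0 := NeZero.ne n
  have h12 : n = 1 ∨ n = 2 := by omega
  rcases h12 with h | h
  · subst h
    exact ⟨((Matrix.scalar (Fin 2)).comp (rlEntry D)).comp Ψ⟩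
  · subst h
    exact ⟨Ψ⟩

/-- the set of `Z`-combinations of the `r i` -/
def RLSpan {E : Type u} [Ring E] (Z : Set E) (r : Fin 8 → E) (m : E) : Prop :=
  ∃ c : Fin 8 → E, (∀ i, c i ∈ Z) ∧ m = ∑ i, c i * r i

theorem pkgRL : PkgRL.{u} := by
  intro p _ V _ _ _ _ G _ _ ρ hfpf S Z hZcomm hZS r hr h1 hS
  classical
  have : Finite (Module.End (ZMod p) V) :=
    Finite.of_injective (fun f : Module.End (ZMod p) V => (f : V → V)) DFunLike.coe_injective
  obtain ⟨A, hA⟩ : ∃ A : Subalgebra (ZMod p) (Module.End (ZMod p) V),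
      A = Algebra.adjoin (ZMod p)
        ((Z : Set (Module.End (ZMod p) V)) ∪ ρ '' (Subgroup.closure S : Set G)) := ⟨_, rfl⟩
  have hZA : ∀ z ∈ Z, z ∈ A := fun z hz => by
    rw [hA]; exact Algebra.subset_adjoin (Or.inl hz)
  have hρA : ∀ g ∈ Subgroup.closure S, ρ g ∈ A := fun g hg => by
    rw [hA]; exact Algebra.subset_adjoin (Or.inr ⟨g, hg, rfl⟩)
  -- closure properties of the span
  have span_add : ∀ m m', RLSpan (Z : Set (Module.End (ZMod p) V)) r m →
      RLSpan (Z : Set (Module.End (ZMod p) V)) r m' →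
      RLSpan (Z : Set (Module.End (ZMod p) V)) r (m + m') := by
    rintro m m' ⟨c, hc, rfl⟩ ⟨c', hc', rfl⟩
    refine ⟨fun i => c i + c' i, fun i => Z.add_mem (hc i) (hc' i), ?_⟩
    rw [← Finset.sum_add_distrib]
    exact Finset.sum_congr rfl (fun i _ => (add_mul _ _ _).symm)
  have span_zmul : ∀ z ∈ Z, ∀ m, RLSpan (Z : Set (Module.End (ZMod p) V)) r m →
      RLSpan (Z : Set (Module.End (ZMod p) V)) r (z * m) := by
    rintro z hz m ⟨c, hc, rfl⟩
    refine ⟨fun i => z * c i, fun i => Z.mul_mem hz (hc i), ?_⟩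
    rw [Finset.mul_sum]
    exact Finset.sum_congr rfl (fun i _ => (mul_assoc _ _ _).symm)
  have span_S : ∀ s ∈ S, ∀ m, RLSpan (Z : Set (Module.End (ZMod p) V)) r m →
      RLSpan (Z : Set (Module.End (ZMod p) V)) r (ρ s * m) := by
    rintro s hs m ⟨c, hc, rfl⟩
    choose d hdZ hd using hS s hs
    refine ⟨fun i => ∑ j, c j * d j i,
      fun i => Z.sum_mem (fun j _ => Z.mul_mem (hc j) (hdZ j i)), ?_⟩
    rw [Finset.mul_sum]
    have e1 : ∀ j, ρ s * (c j * r j) = ∑ i, c j * d j i * r i := by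
      intro j
      rw [← mul_assoc, ← hZS (c j) (hc j) s hs, mul_assoc, hd j, Finset.mul_sum]
      exact Finset.sum_congr rfl (fun i _ => (mul_assoc _ _ _).symm)
    rw [Finset.sum_congr rfl (fun j _ => e1 j), Finset.sum_comm]
    exact Finset.sum_congr rfl (fun i _ => (Finset.sum_mul _ _ _).symm)
  have span_pow : ∀ (x : G), (∀ m, RLSpan (Z : Set (Module.End (ZMod p) V)) r m →
      RLSpan (Z : Set (Module.End (ZMod p) V)) r (ρ x * m)) → ∀ (k : ℕ) m,
      RLSpan (Z : Set (Module.End (ZMod p) V)) r m →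
      RLSpan (Z : Set (Module.End (ZMod p) V)) r (ρ (x ^ k) * m) := by
    intro x hx k
    induction k with
    | zero => intro m hm; rw [pow_zero, map_one, one_mul]; exact hm
    | succ k ih =>
      intro m hm
      rw [pow_succ, map_mul, mul_assoc]
      exact ih _ (hx m hm)
  have inv_eq_pow : ∀ x : G, x⁻¹ = x ^ (orderOf x - 1) := by
    intro x
    have hpos : 0 < orderOf x := orderOf_pos x
    apply inv_eq_of_mul_eq_one_left
    rw [← pow_succ, Nat.sub_add_cancel hpos, pow_orderOf_eq_one]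
  have span_G : ∀ h ∈ Subgroup.closure S, ∀ m, RLSpan (Z : Set (Module.End (ZMod p) V)) r m →
      RLSpan (Z : Set (Module.End (ZMod p) V)) r (ρ h * m) := by
    intro h hh
    induction hh using Subgroup.closure_induction with
    | mem x hx => exact span_S x hx
    | one => intro m hm; rw [map_one, one_mul]; exact hm
    | mul x y _ _ ihx ihy =>
      intro m hm
      rw [map_mul, mul_assoc]
      exact ihx _ (ihy m hm)
    | inv x _ ihx =>
      intro m hm
      rw [inv_eq_pow x]
      exact span_pow x ihx _ m hm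
  have span_A : ∀ x ∈ A, ∀ m, RLSpan (Z : Set (Module.End (ZMod p) V)) r m →
      RLSpan (Z : Set (Module.End (ZMod p) V)) r (x * m) := by
    intro x hx
    rw [hA] at hx
    induction hx using Algebra.adjoin_induction with
    | mem x hx =>
      rcases hx with hx | ⟨g, hg, rfl⟩
      · exact span_zmul x hx
      · exact span_G g hg
    | algebraMap a => exact span_zmul _ (Z.algebraMap_mem a)
    | add x y _ _ ihx ihy =>
      intro m hm
      rw [add_mul]
      exact span_add _ _ (ihx m hm) (ihy m hm)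
    | mul x y _ _ ihx ihy =>
      intro m hm
      rw [mul_assoc]
      exact ihx _ (ihy m hm)
  have span_all : ∀ x ∈ A, RLSpan (Z : Set (Module.End (ZMod p) V)) r x := by
    intro x hx
    have h2 := span_A x hx 1 h1
    rw [mul_one] at h2
    exact h2
  -- `Z` is central in `A`
  have cen_G : ∀ z ∈ Z, ∀ h ∈ Subgroup.closure S, z * ρ h = ρ h * z := by
    intro z hz h hh
    induction hh using Subgroup.closure_induction with
    | mem x hx => exact hZS z hz x hx
    | one => rw [map_one, mul_one, one_mul]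
    | mul x y _ _ ihx ihy => rw [map_mul, ← mul_assoc, ihx, mul_assoc, ihy, mul_assoc]
    | inv x _ ihx =>
      have e1 : ρ x⁻¹ * ρ x = 1 := by rw [← map_mul, inv_mul_cancel, map_one]
      have e2 : ρ x * ρ x⁻¹ = 1 := by rw [← map_mul, mul_inv_cancel, map_one]
      calc z * ρ x⁻¹ = (ρ x⁻¹ * ρ x) * z * ρ x⁻¹ := by rw [e1, one_mul]
        _ = ρ x⁻¹ * (z * ρ x) * ρ x⁻¹ := by rw [ihx, mul_assoc (ρ x⁻¹)]
        _ = ρ x⁻¹ * z * (ρ x * ρ x⁻¹) := by simp only [mul_assoc]
        _ = ρ x⁻¹ * z := by rw [e2, mul_one]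
  have cen_A : ∀ z ∈ Z, ∀ x ∈ A, z * x = x * z := by
    intro z hz x hx
    rw [hA] at hx
    induction hx using Algebra.adjoin_induction with
    | mem x hx =>
      rcases hx with hx | ⟨g, hg, rfl⟩
      · exact hZcomm z hz x hx
      · exact cen_G z hz g hg
    | algebraMap a => exact (Algebra.commutes a z).symm
    | add x y _ _ ihx ihy => rw [mul_add, add_mul, ihx, ihy]
    | mul x y _ _ ihx ihy => rw [← mul_assoc, ihx, mul_assoc, ihy, mul_assoc]
  -- the simple quotient
  have : Finite A := Finite.of_injective (fun x : A => (x : Module.End (ZMod p) V))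
    Subtype.val_injective
  obtain ⟨n, hn, D, hD, hDfin, Ψ, hΨ⟩ := rl_simple_quot A
  have := hn
  have := hDfin
  have hn2 : n ≤ 2 := by
    refine rl_size_le_two A n D Ψ hΨ {x : A | (x : Module.End (ZMod p) V) ∈ Z} ?_
      (fun i => ⟨r i, by rw [hA]; exact hr i⟩) ?_
    · intro z hz x
      apply Subtype.ext
      exact cen_A z.1 hz x.1 x.2
    · intro x
      obtain ⟨c, hc, hx⟩ := span_all x.1 x.2
      refine ⟨fun i => ⟨c i, hZA _ (hc i)⟩, fun i => hc i, ?_⟩
      apply Subtype.ext
      rw [hx]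
      simp
  obtain ⟨Ψ'⟩ := rl_to_two A n hn2 D Ψ
  -- characteristic
  have hchar : CharP D p := by
    rw [CharP.charP_iff_prime_eq_zero (Fact.out : p.Prime)]
    have e1 : ((p : ℕ) : A) = 0 := by
      have e2 : ((p : ℕ) : A) = algebraMap (ZMod p) A ((p : ℕ) : ZMod p) := by
        rw [map_natCast]
      rw [e2, ZMod.natCast_self, map_zero]
    have e3 : ((p : ℕ) : Matrix (Fin 2) (Fin 2) D) = 0 := by
      rw [← map_natCast Ψ', e1, map_zero]
    have e4 : (Matrix.diagonal (fun _ : Fin 2 => ((p : ℕ) : D))) 0 0 = 0 := by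
      rw [Matrix.diagonal_natCast]
      exact congrFun (congrFun e3 0) 0
    rw [Matrix.diagonal_apply_eq] at e4
    exact e4
  -- the homomorphism
  obtain ⟨μ, hμ⟩ : ∃ μ : Subgroup.closure S →* A, ∀ g, (μ g : Module.End (ZMod p) V) = ρ g :=
    ⟨{ toFun := fun g => ⟨ρ g, hρA g g.2⟩
       map_one' := by apply Subtype.ext; simp
       map_mul' := fun a b => by apply Subtype.ext; simp }, fun g => rfl⟩
  refine ⟨D, hD, hDfin, hchar, (Ψ'.toMonoidHom.comp μ).toHomUnits, ?_⟩
  intro g hg
  have e1 : (((Ψ'.toMonoidHom.comp μ).toHomUnits g : Matrix.GeneralLinearGroup (Fin 2) D) :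
      Matrix (Fin 2) (Fin 2) D) - 1 = Ψ' (μ g - 1) := by
    rw [map_sub, map_one]
    rfl
  rw [e1]
  apply IsUnit.map
  -- `μ g - 1` is a unit of `A`
  have hg1 : (g : G) ≠ 1 := fun h => hg (Subtype.ext h)
  have hinj : ∀ v : V, (ρ g - 1) v = 0 → v = 0 := by
    intro v hv
    apply hfpf g hg1 v
    rw [LinearMap.sub_apply, Module.End.one_apply, sub_eq_zero] at hv
    exact hv
  have hval : ((μ g - 1 : A) : Module.End (ZMod p) V) = ρ g - 1 := by
    rw [Subalgebra.coe_sub, hμ, Subalgebra.coe_one]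
  have hlinj : Function.Injective (fun y : A => (μ g - 1) * y) := by
    intro y y' hyy
    have h2 := congrArg (fun t : A => (t : Module.End (ZMod p) V)) hyy
    simp only [Subalgebra.coe_mul, hval] at h2
    apply Subtype.ext
    apply LinearMap.ext
    intro v
    have h3 := congrArg (fun f : Module.End (ZMod p) V => f v) h2
    simp only [Module.End.mul_apply] at h3
    have h4 : (ρ g - 1) ((y : Module.End (ZMod p) V) v - (y' : Module.End (ZMod p) V) v) = 0 := by
      rw [map_sub, h3, sub_self]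
    exact sub_eq_zero.1 (hinj _ h4)
  obtain ⟨y, hy⟩ := (Finite.injective_iff_surjective.1 hlinj) 1
  have hy' : (μ g - 1) * y = 1 := hy
  have hy2 : y * (μ g - 1) = 1 := by
    apply hlinj
    show (μ g - 1) * (y * (μ g - 1)) = (μ g - 1) * 1
    rw [← mul_assoc, hy', one_mul, mul_one]
  exact ⟨⟨μ g - 1, y, hy', hy2⟩, rfl⟩

end Cfsg.Agent.Lib.Helper59.Zass
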